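import Cfsg.Agent.SP.Pos.D.J4Data

/-! # S5755, the row of `J₄`: kernel checks, first level -/

set_option autoImplicit false

namespace Cfsg.Agent.SP.PosD.Janko

theorem inv_ok : invB Sm Lx Ly = true := by decide +kernel
theorem la0_ok : lv1B Sm wsb 0 ga0 ra0 = true := by decide +kernel
theorem la1_ok : lv1B Sm wsb 3 ga1 ra1 = true := by decide +kernel
theorem la2_ok : lv1B Sm wsb 151 ga2 ra2 = true := by decide +kernel
theorem la3_ok : lv1B Sm wsb 152 ga3 ra3 = true := by decide +kernel
theorem la4_ok : lv1B Sm wsb 149 ga4 ra4 = true := by decide +kernel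
theorem la5_ok : lv1B Sm wsb 148 ga5 ra5 = true := by decide +kernel
theorem la6_ok : lv1B Sm wsb 150 ga6 ra6 = true := by decide +kernel

end Cfsg.Agent.SP.PosD.Janko
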