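import Cfsg.Agent.SP.Pos.D.J4Sign

/-! # S5755, the row of `J₄`: certificates and their soundness

`Q = 2^11` with the 1771 conjugates of `z` (mask set `S`). `Full S a u`: every pair `(a, u⁻¹ q u)`, `q` in `S`, is
conjugate to a pair `(z, y)` with an odd element of `C(z)` commuting with `y`. -/

set_option autoImplicit false

namespace Cfsg.Agent.SP.PosD.Janko

open Cfsg.Agent.Lib Cfsg.Agent.Lib.F2Mat Cfsg.Agent.Lib.F2MatGroup
open Cfsg.Agent.J4C.Data (mats)
open Cfsg.Agent.J4C.Link
open Cfsg.Agent.J4M.Base Cfsg.Agent.J4M.DBData Cfsg.Agent.J4M.Derive Cfsg.Agent.J4M.Words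
open Cfsg.Agent.J4M.Gamma (loop loop_sound vw)
open Cfsg.Agent.J4M.KData (v0)
open Cfsg.Agent.J4M.Decomp (act act_mul act_one act_codes act_ev act_inv)
open Cfsg.Agent.J4M.Cen (qf qf_zero qf_succ qv qv_xor qword qv_mem)
open Cfsg.Agent.J4M.CenBound (z z_eq vz stab_v0 qv_zero ev_qword' zR_coe)

/-! ### Linear maps on masks -/

/-- field number `k` -/
def fld (L k : ℕ) : ℕ := Nat.land (Nat.shiftRight L (Nat.mul 11 k)) 2047

/-- the linear map on the low `k` bits -/
def linK (L k m : ℕ) : ℕ := Nat.rec 0 (fun k r => Nat.xor r (cond (m.testBit k) (fld L k) 0)) k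

theorem linK_succ (L k m : ℕ) : linK L (k + 1) m = linK L k m ^^^ (cond (m.testBit k) (fld L k) 0) := rfl

/-- the matrix `B` conjugates `Q` as `L` says -/
def linB (B L : ℕ) : Bool :=
  loop (fun k => Nat.beq (F2Mat.mul 112 (get (F2Mat.one 112) db (Nat.add 4 k)) B)
    (F2Mat.mul 112 B (evW 112 db (qword 11 (fld L k))))) 11

theorem codes_qv (m : ℕ) : Codes 112 (qv m) (evW 112 db (qword 11 m)) := by
  rw [← ev_qword']; exact codes_ev _

theorem linB_sound {g : GG} {B L : ℕ} (hg : Codes 112 g B) (h : linB B L = true) (m : ℕ) :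
    g⁻¹ * qv m * g = qv (linK L 11 m) := by
  have h1 : ∀ k < 11, e (4 + k) * g = g * qv (fld L k) := fun k hk =>
    ((codes_e (4 + k)).mul hg).eq (hg.mul (codes_qv _)) (loop_sound h k hk)
  have h2 : ∀ k ≤ 11, qf (fun i => e (4 + i)) k m * g = g * qv (linK L k m) := by
    intro k
    induction k with
    | zero => intro _; rw [qf_zero, show linK L 0 m = 0 from rfl, qv_zero, mul_one, one_mul]
    | succ k ih =>
      intro hk
      rw [qf_succ, linK_succ, qv_xor, ← mul_assoc g, ← ih (by omega)]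
      cases m.testBit k
      · simp [qv_zero]
      · simp only [if_true, cond_true]
        rw [mul_assoc, mul_assoc, h1 k (by omega)]
  have h3 : qv m * g = g * qv (linK L 11 m) := h2 11 le_rfl
  rw [mul_assoc, h3, inv_mul_cancel_left]

/-! ### Growing a set of masks -/

/-- one of three -/
def sel (L0 L1 L2 i : ℕ) : ℕ := cond (Nat.beq i 0) L0 (cond (Nat.beq i 1) L1 L2)

/-- one step -/
def gstep (L0 L1 L2 x s : ℕ) : ℕ :=
  cond (s.testBit (Nat.land x 2047))
    (Nat.lor s (Nat.shiftLeft 1 (linK (sel L0 L1 L2 (Nat.shiftRight x 11)) 11 (Nat.land x 2047)))) s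

/-- `n` steps -/
def grow (L0 L1 L2 n : ℕ) : ℕ → ℕ → ℕ :=
  Nat.rec (motive := fun _ => ℕ → ℕ → ℕ) (fun _ s => s)
    (fun _ ih T s => force (Nat.land T 65535) fun x => force (gstep L0 L1 L2 x s) fun s' =>
      force (Nat.shiftRight T 16) fun T' => ih T' s') n

theorem grow_succ (L0 L1 L2 n T s : ℕ) : grow L0 L1 L2 (n + 1) T s =
    grow L0 L1 L2 n (Nat.shiftRight T 16) (gstep L0 L1 L2 (Nat.land T 65535) s) := by
  have h : grow L0 L1 L2 (n + 1) T s = force (Nat.land T 65535) fun x => force (gstep L0 L1 L2 x s) fun s' =>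
      force (Nat.shiftRight T 16) fun T' => grow L0 L1 L2 n T' s' := rfl
  rw [h, force_eq, force_eq, force_eq]

theorem testBit_lor_bit {s a m : ℕ} (h : (Nat.lor s (Nat.shiftLeft 1 a)).testBit m = true) :
    s.testBit m = true ∨ a = m := by
  have h' : (s ||| 1 <<< a).testBit m = true := h
  rw [Nat.testBit_or, Nat.one_shiftLeft, Nat.testBit_two_pow, Bool.or_eq_true] at h'
  exact h'.imp id of_decide_eq_true

theorem grow_sound {P : ℕ → Prop} {L0 L1 L2 : ℕ} (h0 : ∀ m, P m → P (linK L0 11 m))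
    (h1 : ∀ m, P m → P (linK L1 11 m)) (h2 : ∀ m, P m → P (linK L2 11 m)) (n : ℕ) :
    ∀ T s, (∀ m, s.testBit m = true → P m) → ∀ m, (grow L0 L1 L2 n T s).testBit m = true → P m := by
  induction n with
  | zero => intro T s hs; exact hs
  | succ n ih =>
    intro T s hs
    rw [grow_succ]
    refine ih _ _ fun m hm => ?_
    unfold gstep at hm
    cases hb : s.testBit (Nat.land (Nat.land T 65535) 2047) with
    | false => rw [hb] at hm; exact hs m hm
    | true =>
      rw [hb] at hm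
      rcases testBit_lor_bit hm with h | h
      · exact hs m h
      · rw [← h]
        unfold sel
        cases Nat.beq (Nat.shiftRight (Nat.land T 65535) 11) 0
        · cases Nat.beq (Nat.shiftRight (Nat.land T 65535) 11) 1
          · exact h2 _ (hs _ hb)
          · exact h1 _ (hs _ hb)
        · exact h0 _ (hs _ hb)

/-- the set of a list of masks -/
def bitsOf (l : List ℕ) : ℕ := List.rec 0 (fun a _ ih => Nat.lor ih (Nat.shiftLeft 1 a)) l

theorem bitsOf_sound {l : List ℕ} {m : ℕ} (h : (bitsOf l).testBit m = true) : m ∈ l := by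
  induction l with
  | nil => exact absurd (show (0 : ℕ).testBit m = true from h) (by simp)
  | cons a l ih =>
    rcases testBit_lor_bit (s := bitsOf l) (a := a) h with h | h
    · exact List.mem_cons_of_mem _ (ih h)
    · rw [h]; exact List.mem_cons_self

/-- three words with their linear maps and a forest -/
structure Gens where
  /-- first word -/
  b0 : List ℕ
  /-- second word -/
  b1 : List ℕ
  /-- third word -/
  b2 : List ℕ
  /-- first map -/
  L0 : ℕ
  /-- second map -/
  L1 : ℕ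
  /-- third map -/
  L2 : ℕ
  /-- the forest -/
  T : ℕ

/-- check of one generator -/
def genB (f : ℕ → Bool) (b : List ℕ) (L : ℕ) : Bool :=
  allIn mA b && force (evW 112 db b) fun B => linB B L && f B

/-- check of the generators and the forest -/
def gensB (S : ℕ) (f : ℕ → Bool) (g : Gens) (reps : List ℕ) : Bool :=
  genB f g.b0 g.L0 && genB f g.b1 g.L1 && genB f g.b2 g.L2 &&
    Nat.beq (Nat.land S (grow g.L0 g.L1 g.L2 1771 g.T (bitsOf reps))) S

theorem gensB_sound {S : ℕ} {f : ℕ → Bool} {g : Gens} {reps : List ℕ} (h : gensB S f g reps = true)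
    {P : ℕ → Prop} (hr : ∀ m ∈ reps, P m)
    (hP : ∀ b ∈ R, ∀ B, Codes 112 b B → f B = true → ∀ m m', b⁻¹ * qv m * b = qv m' → P m → P m') :
    ∀ m, S.testBit m = true → P m := by
  have key : ∀ b L, genB f b L = true → ∀ m, P m → P (linK L 11 m) := by
    intro b L hb m hm
    unfold genB at hb
    rw [force_eq, Bool.and_eq_true, Bool.and_eq_true] at hb
    exact hP _ (ev_mem_R hb.1) _ (codes_ev b) hb.2.2 m _ (linB_sound (codes_ev b) hb.2.1 m) hm
  unfold gensB at h
  rw [Bool.and_eq_true, Bool.and_eq_true, Bool.and_eq_true] at h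
  obtain ⟨⟨⟨h0, h1⟩, h2⟩, h3⟩ := h
  intro m hm
  refine grow_sound (key _ _ h0) (key _ _ h1) (key _ _ h2) 1771 g.T _
    (fun m hm => hr m (bitsOf_sound hm)) m ?_
  have h4 : S &&& grow g.L0 g.L1 g.L2 1771 g.T (bitsOf reps) = S := Nat.eq_of_beq_eq_true h3
  rw [← h4, Nat.testBit_and, Bool.and_eq_true] at hm
  exact hm.2

/-! ### Good pairs -/

/-- odd elements of the centraliser of `z` -/
def OddC (x : GG) : Prop := ∃ c : Cz, emb c = x ∧ sgn c = -1

theorem emb_mem (c : Cz) : emb c ∈ R := (c : R).2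

theorem comm_of_cent {G : Type*} [Group G] {K : Subgroup G} (y : K) (c : Subgroup.centralizer ({y} : Set K)) :
    ((c : K) : G) * y = y * ((c : K) : G) :=
  congrArg Subtype.val (Subgroup.mem_centralizer_singleton_iff.mp c.2)

theorem emb_comm (c : Cz) : emb c * z = z * emb c := by
  have h := comm_of_cent zR c
  rw [zR_coe] at h
  exact h

theorem mem_cent_of {G : Type*} [Group G] {K : Subgroup G} (y : K) {g : G} (hg : g ∈ K) (h : g * y = y * g) :
    (⟨g, hg⟩ : K) ∈ Subgroup.centralizer ({y} : Set K) :=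
  Subgroup.mem_centralizer_singleton_iff.mpr (Subtype.ext h)

theorem exists_emb {g : GG} (hg : g ∈ R) (h : g * z = z * g) : ∃ c : Cz, emb c = g :=
  ⟨⟨⟨g, hg⟩, mem_cent_of zR hg (by rw [zR_coe]; exact h)⟩, rfl⟩

theorem OddC.conj {x g : GG} (hx : OddC x) (hg : g ∈ R) (h : g * z = z * g) : OddC (g⁻¹ * x * g) := by
  obtain ⟨c, rfl, hc⟩ := hx
  obtain ⟨d, rfl⟩ := exists_emb hg h
  refine ⟨d⁻¹ * c * d, by rw [map_mul, map_mul, map_inv], ?_⟩
  rw [map_mul, map_mul, map_inv, hc, mul_comm (sgn d)⁻¹, mul_assoc, inv_mul_cancel, mul_one]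

/-- the pair `(a, b)` is good -/
def Good (a b : GG) : Prop :=
  ∃ g ∈ R, ∃ x, OddC x ∧ a = g⁻¹ * z * g ∧ (g⁻¹ * x * g) * b = b * (g⁻¹ * x * g)

theorem Good.conj {a b h : GG} (hab : Good a b) (hh : h ∈ R) : Good (h⁻¹ * a * h) (h⁻¹ * b * h) := by
  obtain ⟨g, hg, x, hx, rfl, e⟩ := hab
  refine ⟨g * h, R.mul_mem hg hh, x, hx, by group, ?_⟩
  calc (g * h)⁻¹ * x * (g * h) * (h⁻¹ * b * h) = h⁻¹ * ((g⁻¹ * x * g) * b) * h := by group
    _ = _ := by rw [e]; group

theorem Good.odd {b : GG} (h : Good z b) : ∃ x, OddC x ∧ x * b = b * x := by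
  obtain ⟨g, hg, x, hx, e1, e2⟩ := h
  refine ⟨_, hx.conj hg ?_, e2⟩
  calc g * z = g * (g⁻¹ * z * g) := by rw [← e1]
    _ = z * g := by group

/-- all pairs `(a, u⁻¹ q u)` are good -/
def Full (S : ℕ) (a u : GG) : Prop := ∀ m, S.testBit m = true → Good a (u⁻¹ * qv m * u)

/-- the set of masks is invariant under `H` -/
def Inv (S : ℕ) : Prop :=
  ∀ h ∈ H, ∀ m, S.testBit m = true → ∃ m', S.testBit m' = true ∧ h⁻¹ * qv m * h = qv m'

theorem Full.conj {S : ℕ} {a u g : GG} (h : Full S a u) (hg : g ∈ R) : Full S (g⁻¹ * a * g) (u * g) := by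
  intro m hm
  have := (h m hm).conj hg
  rwa [show g⁻¹ * (u⁻¹ * qv m * u) * g = (u * g)⁻¹ * qv m * (u * g) by group] at this

theorem Full.left {S : ℕ} (hS : Inv S) {a u h : GG} (hu : Full S a u) (hh : h ∈ H) : Full S a (h * u) := by
  intro m hm
  obtain ⟨m', hm', e⟩ := hS h hh m hm
  have := hu m' hm'
  rwa [← e, show u⁻¹ * (h⁻¹ * qv m * h) * u = (h * u)⁻¹ * qv m * (h * u) by group] at this

theorem Full.of_act {S : ℕ} (hS : Inv S) {a u u' : GG} (hu : Full S a u) (h1 : u ∈ R) (h2 : u' ∈ R)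
    (h : act vz u = act vz u') : Full S a u' := by
  have h3 : u' * u⁻¹ ∈ H := stab_v0 _ (R.mul_mem h2 (R.inv_mem h1)) (by
    rw [act_mul, ← h, ← act_mul, mul_inv_cancel, act_one])
  have := hu.left hS h3
  rwa [inv_mul_cancel_right] at this

/-- check of the invariance -/
def invB (S L0 L1 : ℕ) : Bool :=
  linB (get (F2Mat.one 112) db 1) L0 && linB (get (F2Mat.one 112) db 2) L1 &&
    loop (fun m => cond (S.testBit m) (S.testBit (linK L0 11 m) && S.testBit (linK L1 11 m)) true) 2048 &&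
    Nat.beq (Nat.shiftRight S 2048) 0

theorem invB_sound {S L0 L1 : ℕ} (h : invB S L0 L1 = true) : Inv S := by
  unfold invB at h
  rw [Bool.and_eq_true, Bool.and_eq_true, Bool.and_eq_true] at h
  obtain ⟨⟨⟨h0, h1⟩, h2⟩, h3⟩ := h
  have hlt : ∀ m, S.testBit m = true → m < 2048 := by
    intro m hm
    by_contra hc
    have h4 : S >>> 2048 = 0 := Nat.eq_of_beq_eq_true h3
    have h5 := congrArg (fun x => Nat.testBit x (m - 2048)) h4
    simp only [Nat.testBit_shiftRight, Nat.zero_testBit] at h5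
    rw [show 2048 + (m - 2048) = m by omega, hm] at h5
    exact absurd h5 (by simp)
  have h4 : ∀ m, S.testBit m = true → S.testBit (linK L0 11 m) = true ∧ S.testBit (linK L1 11 m) = true := by
    intro m hm
    have := loop_sound h2 m (hlt m hm)
    simp only [hm, cond_true, Bool.and_eq_true] at this
    exact this
  intro g hg
  unfold H at hg
  rw [← Subgroup.mem_toSubmonoid, Subgroup.closure_toSubmonoid_of_finite] at hg
  induction hg using Submonoid.closure_induction with
  | mem s hs =>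
    intro m hm
    rcases hs with rfl | rfl | rfl
    · exact ⟨_, (h4 m hm).1, by rw [← e1]; exact linB_sound (codes_e 1) h0 m⟩
    · exact ⟨_, (h4 m hm).2, by rw [← e2]; exact linB_sound (codes_e 2) h1 m⟩
    · refine ⟨m, hm, ?_⟩
      rw [mul_assoc, Cfsg.Agent.J4M.MGroup.Q_comm _ (qv_mem m) _
        (Cfsg.Agent.J4M.QBase.Q_mem0 (i := 4) (by norm_num) (by norm_num)), inv_mul_cancel_left]
  | one => intro m hm; exact ⟨m, hm, by simp⟩
  | mul x y _ _ hx hy =>
    intro m hm
    obtain ⟨m1, hm1, e1⟩ := hx m hm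
    obtain ⟨m2, hm2, e2⟩ := hy m1 hm1
    exact ⟨m2, hm2, by rw [← e2, ← e1]; group⟩

/-! ### The second level -/

/-- data for one orbit of `C(z)` on the conjugates of `Q` -/
structure Lv2 where
  /-- representative -/
  w : List ℕ
  /-- its inverse -/
  wi : List ℕ
  /-- generators of the stabiliser -/
  g : Gens
  /-- masks with odd words -/
  reps : List (ℕ × List ℕ)

/-- check of one odd word -/
def rep2B (W W' : ℕ) (r : ℕ × List ℕ) : Bool :=
  par r.2 && force (evW 112 mats r.2) fun X =>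
    force (F2Mat.mul 112 (F2Mat.mul 112 W' (evW 112 db (qword 11 r.1))) W) fun Y =>
      Nat.beq (F2Mat.mul 112 X Y) (F2Mat.mul 112 Y X)

/-- the check -/
def lv2B (S : ℕ) (d : Lv2) : Bool :=
  allIn mA d.w && force (evW 112 db d.w) fun W => force (evW 112 db d.wi) fun W' =>
    Nat.beq (F2Mat.mul 112 W W') (F2Mat.one 112) &&
      (force (F2Mat.mul 112 (F2Mat.mul 112 W (evW 112 db zw)) W') fun A =>
        gensB S (fun B => Nat.beq (F2Mat.mul 112 B A) (F2Mat.mul 112 A B)) d.g (d.reps.map Prod.fst)) &&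
      d.reps.all (rep2B W W')

theorem codes_z : Codes 112 z (evW 112 db zw) := by rw [z_eq]; exact codes_ev _

theorem lv2B_sound {S : ℕ} {d : Lv2} (h : lv2B S d = true) : ev d.w ∈ R ∧ Full S z (ev d.w) := by
  unfold lv2B at h
  rw [force_eq, force_eq, force_eq, Bool.and_eq_true, Bool.and_eq_true, Bool.and_eq_true] at h
  obtain ⟨h0, ⟨h1, h2⟩, h3⟩ := h
  have hw := ev_mem_R h0
  have cw := codes_ev d.w
  have cwi := cw.inv h1
  refine ⟨hw, gensB_sound h2 (P := fun m => Good z ((ev d.w)⁻¹ * qv m * ev d.w)) ?_ ?_⟩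
  · intro m hm
    obtain ⟨r, hr, rfl⟩ := List.mem_map.1 hm
    have h4 := List.all_eq_true.1 h3 r hr
    unfold rep2B at h4
    rw [force_eq, force_eq, Bool.and_eq_true] at h4
    have cy := (cwi.mul (codes_qv r.1)).mul cw
    have cx := codes_word r.2
    refine ⟨1, R.one_mem, emb (evG LC r.2), ⟨_, rfl, by rw [sgn_word, if_pos h4.1]⟩, by simp, ?_⟩
    rw [inv_one, one_mul, mul_one]
    exact (cx.mul cy).eq (cy.mul cx) h4.2
  · intro b hb B cb hf m m' e hm
    have ca := (cw.mul codes_z).mul cwi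
    have h5 := (cb.mul ca).eq (ca.mul cb) hf
    have hs : (ev d.w)⁻¹ * b * ev d.w ∈ R := R.mul_mem (R.mul_mem (R.inv_mem hw) hb) hw
    have h6 := hm.conj hs
    have e1 : ((ev d.w)⁻¹ * b * ev d.w)⁻¹ * z * ((ev d.w)⁻¹ * b * ev d.w) = z := by
      calc _ = (ev d.w)⁻¹ * b⁻¹ * (ev d.w * z * (ev d.w)⁻¹ * b) * ev d.w := by group
        _ = z := by rw [← h5]; group
    have e2 : ((ev d.w)⁻¹ * b * ev d.w)⁻¹ * ((ev d.w)⁻¹ * qv m * ev d.w) * ((ev d.w)⁻¹ * b * ev d.w) =
        (ev d.w)⁻¹ * qv m' * ev d.w := by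
      rw [← e]; group
    rwa [e1, e2] at h6

/-! ### The first level -/

/-- a mask, a representative of the second level, and a conjugating element -/
structure Rep1 where
  /-- the mask -/
  m : ℕ
  /-- number of the representative -/
  j : ℕ
  /-- word in the letters of the centraliser -/
  c : List ℕ
  /-- word in the letters of `H` -/
  r : List ℕ

/-- check of one representative -/
def rep1B (ws : List (List ℕ)) (v : ℕ) (r : Rep1) : Bool :=
  allIn mA r.r && Nat.ble (Nat.succ r.j) ws.length &&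
    force (F2Mat.mul 112 (evW 112 mats r.c) (evW 112 db r.r)) fun G =>
      Nat.beq (F2Mat.mul 112 (evW 112 db zw) G) (F2Mat.mul 112 G (evW 112 db (qword 11 r.m))) &&
        Nat.beq (vmul 112 (vw v0 (ws.getD r.j [])) G) v

/-- the check -/
def lv1B (S : ℕ) (ws : List (List ℕ)) (i : ℕ) (g : Gens) (reps : List Rep1) : Bool :=
  force (vw v0 [i]) fun v =>
    gensB S (fun B => Nat.beq (vmul 112 v B) v) g (reps.map Rep1.m) && reps.all (rep1B ws v)

theorem lv1B_sound {S : ℕ} (hS : Inv S) {ws : List (List ℕ)} (hws : ∀ w ∈ ws, ev w ∈ R ∧ Full S z (ev w))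
    {i : ℕ} (hi : e i ∈ R) {g : Gens} {reps : List Rep1} (h : lv1B S ws i g reps = true) :
    ∀ m, S.testBit m = true → Full S (qv m) (e i) := by
  unfold lv1B at h
  rw [force_eq, Bool.and_eq_true] at h
  have hv : act vz (e i) = toVec 112 (vw v0 [i]) := by
    have := act_ev v0 [i]
    rwa [ev_cons, ev_nil, mul_one] at this
  refine gensB_sound h.1 (P := fun m => Full S (qv m) (e i)) ?_ ?_
  · intro m hm
    obtain ⟨r, hr, rfl⟩ := List.mem_map.1 hm
    have h4 := List.all_eq_true.1 h.2 r hr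
    unfold rep1B at h4
    rw [force_eq, Bool.and_eq_true, Bool.and_eq_true, Bool.and_eq_true] at h4
    obtain ⟨⟨h5, h6⟩, h7, h8⟩ := h4
    have hj : r.j < ws.length := Nat.le_of_ble_eq_true h6
    have hmem : ws.getD r.j [] ∈ ws := by
      rw [List.getD_eq_getElem _ _ hj]; exact List.getElem_mem hj
    obtain ⟨hw, hF⟩ := hws _ hmem
    have cg := (codes_word r.c).mul (codes_ev r.r)
    have hg : emb (evG LC r.c) * ev r.r ∈ R := R.mul_mem (emb_mem _) (ev_mem_R h5)
    have e1 := (codes_z.mul cg).eq (cg.mul (codes_qv r.m)) h7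
    have h9 := hF.conj hg
    rw [mul_assoc, e1, inv_mul_cancel_left] at h9
    refine h9.of_act hS (R.mul_mem hw hg) hi ?_
    rw [act_mul, hv, ← Nat.eq_of_beq_eq_true h8, ← act_codes cg, ← act_ev]
    rfl
  · intro b hb B cb hf m m' e1 hm
    have h9 := hm.conj hb
    rw [e1] at h9
    refine h9.of_act hS (R.mul_mem hi hb) hi ?_
    rw [act_mul, hv, act_codes cb, Nat.eq_of_beq_eq_true hf]

end Cfsg.Agent.SP.PosD.Janko
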