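import Cfsg.Agent.J4M.CenBound

/-! # S5755, the row of `J₄`: the sign homomorphism of the involution centraliser -/

set_option autoImplicit false

namespace Cfsg.Agent.SP.PosD.Janko

open Cfsg.Agent.Lib Cfsg.Agent.Lib.F2MatGroup
open Cfsg.Agent.J4C.Data Cfsg.Agent.J4C.Steiner Cfsg.Agent.J4C.Theta Cfsg.Agent.J4C.Act
open Cfsg.Agent.J4C.Link Cfsg.Agent.J4C.Final
open Cfsg.Agent.J4M.Base

/-- the generators of the centraliser -/
noncomputable def sC (i : Fin 26) : Cz := ⟨sR i, Subgroup.mem_centralizer_singleton_iff.mpr (sR_comm i)⟩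

theorem codes_sC (i : Fin 26) : Codes 112 (emb (sC i)) (mats.getD i 0) := by
  have h := codes_ev (sw i)
  rw [codes_ok i] at h
  exact h

theorem card_of_isC {C : Type*} [Group C] [Finite C] (h : Cfsg.Agent.J4C.Struct.IsC C) :
    Nat.card C = 21799895040 := by
  obtain ⟨Q, N, M, -, -, -, hNM, -, -, hN, hM, hn, -, h22⟩ := h
  have h1 := Subgroup.card_eq_card_quotient_mul_card_subgroup (N.subgroupOf M)
  rw [h22, Nat.card_congr (Subgroup.subgroupOfEquivOfLe hNM).toEquiv, hN] at h1
  have h2 := Subgroup.card_mul_index M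
  rw [h1, hM] at h2
  rw [← h2]
  norm_num

theorem closure_sC : Subgroup.closure (Set.range sC) = ⊤ := by
  have hfin : Finite R := inferInstance
  set C0 : Subgroup Cz := Subgroup.closure (Set.range sC) with hC0
  have hle : Nat.card C0 ≤ 21799895040 :=
    (Subgroup.card_le_card_group _).trans Cfsg.Agent.J4M.CenBound.card_Cz_le
  have h := Cfsg.Agent.J4C.Final.main (C := C0) (emb.comp C0.subtype)
    (emb_injective.comp C0.subtype_injective) hle
    (fun i => ⟨sC i, Subgroup.subset_closure ⟨i, rfl⟩⟩) (fun i => codes_sC i)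
  apply Subgroup.eq_top_of_le_card
  rw [card_of_isC h]
  exact Cfsg.Agent.J4M.CenBound.card_Cz_le

theorem sign_tau : ∀ i : Fin 26, Equiv.Perm.sign (tau (up i)) = if i = 23 then -1 else 1 := by
  decide +kernel

theorem exists_sgn : ∃ φ : Cz →* ℤˣ, ∀ i : Fin 26, φ (sC i) = if i = 23 then -1 else 1 := by
  classical
  let _ := act emb
  obtain ⟨θ, hθ⟩ := exists_theta (vec Cz) blk (vec_injective Cz) hblk sC (fun i => tau (up i))
    (fun i => mem_pairs emb i (sC i) (codes_sC i))
  let ι : Cz →* Subgroup.closure (Set.range sC) :=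
    (MonoidHom.id Cz).codRestrict _ (fun x => by rw [closure_sC]; exact Subgroup.mem_top _)
  refine ⟨Equiv.Perm.sign.comp ((Subgroup.subtype _).comp (θ.comp ι)), fun i => ?_⟩
  rw [← sign_tau i, ← hθ i]
  rfl

/-- the sign homomorphism -/
noncomputable def sgn : Cz →* ℤˣ := exists_sgn.choose

theorem sgn_sC (i : Fin 26) : sgn (sC i) = if i = 23 then -1 else 1 := exists_sgn.choose_spec i

/-- the 28 letters -/
noncomputable def LC : List Cz := (List.finRange 28).map (ext28 sC)

theorem codes_LC : List.Forall₂ (Codes 112) (LC.map emb) mats := by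
  rw [mats_eq, LC, List.map_map, List.forall₂_map_left_iff, List.forall₂_map_right_iff, List.forall₂_same]
  intro i _
  show Codes 112 (emb (ext28 sC i)) (mats.getD i 0)
  unfold ext28
  split_ifs with h1 h2
  · exact codes_sC ⟨i, h1⟩
  · rw [h2, map_inv]
    exact codes26 (codes_sC ⟨23, by norm_num⟩)
  · have h3 : i.1 = 27 := by have := i.2; omega
    rw [h3, map_inv]
    exact codes27 (codes_sC ⟨24, by norm_num⟩)

/-- odd letters -/
def oddL (i : ℕ) : Bool := Nat.beq i 23 || Nat.beq i 26

theorem sgn_get (i : ℕ) : sgn (getG LC i) = if oddL i = true then -1 else 1 := by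
  by_cases hi : i < 28
  · have e : getG LC i = ext28 sC ⟨i, hi⟩ := by
      unfold getG LC
      rw [List.getD_eq_getElem _ _ (by simpa using hi)]
      simp
    rw [e]
    unfold ext28
    by_cases h1 : i < 26
    · rw [dif_pos h1, sgn_sC]
      have : ((⟨i, h1⟩ : Fin 26) = 23) ↔ oddL i = true := by
        interval_cases i <;> simp [oddL]
      simp only [this]
    · rw [dif_neg h1]
      by_cases h2 : i = 26
      · subst h2
        rw [if_pos rfl, map_inv, sgn_sC]; rfl
      · have h3 : i = 27 := by omega
        subst h3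
        rw [if_neg h2, map_inv, sgn_sC]; rfl
  · have e : getG LC i = 1 := by
      unfold getG LC
      rw [List.getD_eq_default _ _ (by simpa using hi)]
    have h2 : ¬ oddL i = true := by
      unfold oddL
      rw [Bool.or_eq_true, Nat.beq_eq, Nat.beq_eq]
      omega
    rw [e, map_one, if_neg h2]

/-- parity of a word -/
def par (w : List ℕ) : Bool := List.rec false (fun i _ ih => xor (oddL i) ih) w

theorem sgn_word (w : List ℕ) : sgn (evG LC w) = if par w = true then -1 else 1 := by
  induction w with
  | nil => rw [evG_nil, map_one]; rfl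
  | cons i w ih =>
    have e : par (i :: w) = xor (oddL i) (par w) := rfl
    rw [evG_cons, map_mul, ih, sgn_get, e]
    cases oddL i <;> cases par w <;> simp

theorem codes_word (w : List ℕ) : Codes 112 (emb (evG LC w)) (evW 112 mats w) := by
  rw [← evG_map]
  exact codes_evW codes_LC w

end Cfsg.Agent.SP.PosD.Janko
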