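import Cfsg.Agent.SP.Pos.D.LyBase

/-! # S5755, the row of `Ly`: certificates and their soundness

`X0` is an element of order three of `G₂(5)` with a one-dimensional fixed space `⟨u0⟩`. Its conjugate by `h` depends
only on `u0 h`, by a formula in the cross product. -/

set_option autoImplicit false

namespace Cfsg.Agent.SP.PosD.Lyons

open Cfsg.Agent.Lib.PackMat Matrix
open Cfsg.Agent.Ly.Data111 (C)
open Cfsg.Agent.Ly.Setup (psi)
open Cfsg.Agent.Ly.Cover (Hhat)

/-! ### Codes of vectors -/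

/-- the row code of the vector with base-five digits `n` -/
def enc (n : ℕ) : ℕ :=
  Nat.add (Nat.add (Nat.add (Nat.add (Nat.add (Nat.add (Nat.mod n 5)
    (Nat.mul (Nat.mod (Nat.div n 5) 5) 4096)) (Nat.mul (Nat.mod (Nat.div n 25) 5) 16777216))
    (Nat.mul (Nat.mod (Nat.div n 125) 5) 68719476736)) (Nat.mul (Nat.mod (Nat.div n 625) 5) 281474976710656))
    (Nat.mul (Nat.mod (Nat.div n 3125) 5) 1152921504606846976))
    (Nat.mul (Nat.mod (Nat.div n 15625) 5) 4722366482869645213696)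

/-- the number of a row code -/
def dec (R : ℕ) : ℕ :=
  Nat.add (Nat.add (Nat.add (Nat.add (Nat.add (Nat.add (Nat.mod R 4096)
    (Nat.mul (Nat.mod (Nat.div R 4096) 4096) 5)) (Nat.mul (Nat.mod (Nat.div R 16777216) 4096) 25))
    (Nat.mul (Nat.mod (Nat.div R 68719476736) 4096) 125))
    (Nat.mul (Nat.mod (Nat.div R 281474976710656) 4096) 625))
    (Nat.mul (Nat.mod (Nat.div R 1152921504606846976) 4096) 3125))
    (Nat.mul (Nat.mod (Nat.div R 4722366482869645213696) 4096) 15625)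

theorem enc_eq (n : ℕ) : enc n = E 12 (fun k => n / 5 ^ k % 5) 7 := by
  rw [E_def]
  simp only [Finset.sum_range_succ, Finset.sum_range_zero]
  norm_num
  rfl

theorem dec_eq (R : ℕ) : dec R = dg 12 R 0 + dg 12 R 1 * 5 + dg 12 R 2 * 25 + dg 12 R 3 * 125 +
    dg 12 R 4 * 625 + dg 12 R 5 * 3125 + dg 12 R 6 * 15625 := by
  simp only [dg_def]
  norm_num
  rfl

theorem enc_ok (n : ℕ) : OkR C7 (enc n) := by
  have h : ∀ k < 7, n / 5 ^ k % 5 < 2 ^ 12 := fun k _ => lt_trans (Nat.mod_lt _ (by norm_num)) (by norm_num)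
  rw [enc_eq]
  refine ⟨E_lt h, fun i hi => ?_⟩
  show dg 12 _ i < 5
  rw [dg_E h hi]
  exact Nat.mod_lt _ (by norm_num)

theorem enc_dec {R : ℕ} (h : OkR C7 R) : enc (dec R) = R ∧ dec R < 78125 := by
  have h0 : dg 12 R 0 < 5 := h.2 0 (by decide)
  have h1 : dg 12 R 1 < 5 := h.2 1 (by decide)
  have h2 : dg 12 R 2 < 5 := h.2 2 (by decide)
  have h3 : dg 12 R 3 < 5 := h.2 3 (by decide)
  have h4 : dg 12 R 4 < 5 := h.2 4 (by decide)
  have h5 : dg 12 R 5 < 5 := h.2 5 (by decide)
  have h6 : dg 12 R 6 < 5 := h.2 6 (by decide)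
  have hR : R < 2 ^ (12 * 7) := h.1
  refine ⟨?_, by rw [dec_eq]; omega⟩
  rw [enc_eq]
  conv_rhs => rw [← E_dg hR]
  refine E_congr fun i hi => ?_
  rw [dec_eq]
  interval_cases i <;> norm_num <;> omega

/-- the vector with number `n` -/
def vec (n : ℕ) : V7 := rv7 (enc n)

theorem vec_dec {R : ℕ} (h : OkR C7 R) : vec (dec R) = rv7 R := by
  unfold vec; rw [(enc_dec h).1]

/-- code of minus the identity -/
def NEG : ℕ := 0x4000000000000000000000004000000000000000000000004000000000000000000000004000000000000000000000004000000000000000000000004000000000000000000000004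

theorem NEG_ok : okG C7 NEG = true := by decide +kernel

theorem m7_NEG : m7 NEG = -1 := by
  have h : ∀ a b : Fin 7, ((dg 12 NEG (a + 7 * b) : ℕ) : ZMod 5) = if a = b then -1 else 0 := by decide +kernel
  ext a b
  rw [Matrix.neg_apply, Matrix.one_apply]
  refine (h a b).trans ?_
  split_ifs <;> simp

theorem st_NEG {R : ℕ} (h : OkR C7 R) : OkR C7 (st R NEG) ∧ rv7 (st R NEG) = -rv7 R := by
  have h1 := st_spec h NEG_ok
  rw [m7_NEG, vecMul_neg, vecMul_one] at h1
  exact h1

/-! ### The cross product -/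

/-- structure constants -/
def LT : ℕ := 0x28795c51cbb26e18050f900b7d14a333dc7c018a18826f7308e13dc63cb2fd67da1557615c38858ce899cff29d2c5ad061866f26bf22eaed8551cc3987eb4466181c1d71909f6ea2550cabf2a38befbac76c2a2729011d7c1711ac8709f

/-- multiplication by a basis vector -/
def Lb (i : Fin 7) : M7 := Matrix.of fun a b => ((LT / 5 ^ (49 * (i : ℕ) + 7 * a + b) % 5 : ℕ) : ZMod 5)

/-- multiplication by a vector -/
def Lm (u : V7) : M7 := ∑ i, u i • Lb i

theorem Lb_gen : ∀ (g : Fin 4) (i a b : Fin 7),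
    ∑ k : Fin 7, Lb i a k * ((dg 12 (g7 g) (k + 7 * b) : ℕ) : ZMod 5) =
      ∑ k : Fin 7, ((dg 12 (g7 g) (a + 7 * k) : ℕ) : ZMod 5) *
        ∑ j : Fin 7, ((dg 12 (g7 g) (i + 7 * j) : ℕ) : ZMod 5) * Lb j k b := by
  decide +kernel

theorem Lm_vecMul (u : V7) (M : M7) : Lm (u ᵥ* M) = ∑ i, u i • Lm (M i) := by
  unfold Lm
  simp only [vecMul, dotProduct, Finset.sum_smul, Finset.smul_sum, smul_smul]
  exact Finset.sum_comm

theorem Lm_equiv (h : Hhat) : ∀ u : V7, Lm u * mh h = mh h * Lm (u ᵥ* mh h) := by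
  induction h using hhat_ind with
  | h1 => intro u; rw [mh_one, vecMul_one, mul_one, one_mul]
  | hg g a ha =>
    intro u
    rw [ha, Lm_vecMul, Lm, Finset.sum_mul, Finset.mul_sum]
    refine Finset.sum_congr rfl fun i _ => ?_
    rw [smul_mul_assoc, mul_smul_comm]
    congr 1
    ext a b
    rw [Matrix.mul_apply, Matrix.mul_apply]
    refine (Lb_gen g i a b).trans (Finset.sum_congr rfl fun k _ => ?_)
    rw [Lm, Matrix.sum_apply]
    rfl
  | hm a b ha hb =>
    intro u
    rw [mh_mul, ← mul_assoc, ha, mul_assoc, hb, ← mul_assoc, vecMul_vecMul]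

/-- the element of order three attached to a vector -/
def xm (u : V7) : M7 := 1 + Lm u + (Lm u * Lm u + Lm u * Lm u)

theorem xm_equiv (h : Hhat) (u : V7) : xm u * mh h = mh h * xm (u ᵥ* mh h) := by
  have e := Lm_equiv h u
  have e2 : Lm u * Lm u * mh h = mh h * (Lm (u ᵥ* mh h) * Lm (u ᵥ* mh h)) := by
    rw [mul_assoc, e, ← mul_assoc, e, mul_assoc]
  unfold xm
  rw [add_mul, add_mul, add_mul, e2, e, mul_add, mul_add, mul_add, one_mul, mul_one]

/-- the word of the element of order three -/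
def x0 : List ℕ := [0, 1, 5, 6]

/-- the element of order three -/
def X0 : GG := wd x0

/-- its fixed vector -/
def u0 : V7 := vec 1100

/-- code of its matrix -/
def XC : ℕ := 0x4003000000000000000003000000000000000000000000001002004000000000000004004000000000000000004000000000000000000000000000004003000000000000000003000

/-- code of the inverse matrix -/
def XI : ℕ := 0x2000000000000000002004000000000000000000000000000004000000000000000004001000000000000004003001000000000000000000000000002000000000000000002004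

/-- code of the multiplication by `u0` -/
def LU : ℕ := 0x2003000000000000000003003000000000000000000000003001000000000000000002000002000000000000000001002000000000000000000000002003000000000000000003003

theorem Lm_u0 : Lm u0 = m7 LU := by
  have h : ∀ a b : Fin 7, ∑ i : Fin 7, ((dg 12 (enc 1100) (7 - 1 - i) : ℕ) : ZMod 5) * Lb i a b =
      ((dg 12 LU (a + 7 * b) : ℕ) : ZMod 5) := by decide +kernel
  ext a b
  rw [Lm, Matrix.sum_apply]
  exact h a b

theorem Lm_neg (u : V7) : Lm (-u) = -Lm u := by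
  unfold Lm
  simp only [Pi.neg_apply, neg_smul, Finset.sum_neg_distrib]

theorem xm_u0 : xm u0 = m7 XC := by
  have h : ∀ a b : Fin 7, (if a = b then 1 else 0) + ((dg 12 LU (a + 7 * b) : ℕ) : ZMod 5) +
      (∑ k : Fin 7, ((dg 12 LU (a + 7 * k) : ℕ) : ZMod 5) * ((dg 12 LU (k + 7 * b) : ℕ) : ZMod 5) +
       ∑ k : Fin 7, ((dg 12 LU (a + 7 * k) : ℕ) : ZMod 5) * ((dg 12 LU (k + 7 * b) : ℕ) : ZMod 5)) =
      ((dg 12 XC (a + 7 * b) : ℕ) : ZMod 5) := by decide +kernel
  ext a b
  rw [xm, Lm_u0]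
  simp only [Matrix.add_apply, Matrix.one_apply, Matrix.mul_apply]
  exact h a b

theorem xm_neg_u0 : xm (-u0) = m7 XI := by
  have h : ∀ a b : Fin 7, (if a = b then 1 else 0) + -((dg 12 LU (a + 7 * b) : ℕ) : ZMod 5) +
      (∑ k : Fin 7, ((dg 12 LU (a + 7 * k) : ℕ) : ZMod 5) * ((dg 12 LU (k + 7 * b) : ℕ) : ZMod 5) +
       ∑ k : Fin 7, ((dg 12 LU (a + 7 * k) : ℕ) : ZMod 5) * ((dg 12 LU (k + 7 * b) : ℕ) : ZMod 5)) =
      ((dg 12 XI (a + 7 * b) : ℕ) : ZMod 5) := by decide +kernel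
  ext a b
  rw [xm, Lm_neg, Lm_u0, neg_mul_neg]
  simp only [Matrix.add_apply, Matrix.one_apply, Matrix.mul_apply, Matrix.neg_apply]
  exact h a b

theorem exists_x0 : ∃ x : Hhat, psi x = X0 ∧ mh x = xm u0 ∧ mh x⁻¹ = xm (-u0) := by
  have h1 : actB rn st x0 XC = true := by decide +kernel
  have h2 : actB rn st (iw x0) XI = true := by decide +kernel
  obtain ⟨x, hx, hm⟩ := mem_of_acts (actB_sound h1)
  refine ⟨x, hx, by rw [hm, xm_u0], ?_⟩
  have h3 := actB_sound h2
  rw [wd_iw, ← hx, ← map_inv] at h3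
  rw [xm_neg_u0]
  exact (acts_psi _).unique h3

/-- conjugates of `X0` inside `G₂(5)` -/
noncomputable def cj (h : Hhat) : GG := (psi h)⁻¹ * X0 * psi h

theorem cj_mul (h k : Hhat) : cj (h * k) = (psi k)⁻¹ * cj h * psi k := by
  unfold cj; rw [map_mul]; group

theorem mh_conj {x : Hhat} {u : V7} (hx : mh x = xm u) (h : Hhat) : mh (h⁻¹ * x * h) = xm (u ᵥ* mh h) := by
  rw [mh_mul, mh_mul, mul_assoc, hx, xm_equiv, ← mul_assoc, mh_inv, one_mul]

theorem cj_eq {h k : Hhat} (e : u0 ᵥ* mh h = u0 ᵥ* mh k) : cj h = cj k := by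
  obtain ⟨x, h1, h2, -⟩ := exists_x0
  have h4 : h⁻¹ * x * h = k⁻¹ * x * k := mh_inj (by rw [mh_conj h2, mh_conj h2, e])
  have h5 := congrArg psi h4
  simp only [map_mul, map_inv, h1] at h5
  exact h5

theorem cj_neg {h k : Hhat} (e : u0 ᵥ* mh h = -(u0 ᵥ* mh k)) : cj h = (cj k)⁻¹ := by
  obtain ⟨x, h1, h2, h3⟩ := exists_x0
  have h4 : h⁻¹ * x * h = k⁻¹ * x⁻¹ * k := mh_inj (by rw [mh_conj h2, mh_conj h3, e, neg_vecMul])
  have h5 := congrArg psi h4
  simp only [map_mul, map_inv, h1] at h5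
  unfold cj
  rw [h5]; group

/-! ### Growing a set of vectors -/

section Grow

variable (s : ℕ → ℕ → ℕ)

/-- one step -/
noncomputable def gstep (cs : List ℕ) (x b : ℕ) : ℕ :=
  force (Nat.land x 131071) fun a =>
    cond (b.testBit a)
      (force (s (enc a) (cs.getD (Nat.land (Nat.shiftRight x 17) 3) NEG)) fun R =>
        force (cond (Nat.beq (Nat.shiftRight x 19) 0) R (s R NEG)) fun R' =>
          Nat.lor b (Nat.shiftLeft 1 (dec R'))) b

/-- `n` steps -/
noncomputable def grow1 (cs : List ℕ) (n : ℕ) : ℕ → ℕ → ℕ :=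
  Nat.rec (motive := fun _ => ℕ → ℕ → ℕ) (fun _ b => b)
    (fun _ ih T b => force (Nat.land T 1048575) fun x => force (gstep s cs x b) fun b' =>
      force (Nat.shiftRight T 20) fun T' => ih T' b') n

/-- blocks of 128 steps -/
noncomputable def grow (cs : List ℕ) (Ts : List ℕ) : ℕ → ℕ :=
  List.rec (motive := fun _ => ℕ → ℕ) (fun b => b) (fun T _ ih b => force (grow1 s cs 128 T b) ih) Ts

theorem grow1_succ (cs : List ℕ) (n T b : ℕ) : grow1 s cs (n + 1) T b =
    grow1 s cs n (Nat.shiftRight T 20) (gstep s cs (Nat.land T 1048575) b) := rfl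

theorem grow_cons (cs : List ℕ) (T : ℕ) (Ts : List ℕ) (b : ℕ) :
    grow s cs (T :: Ts) b = grow s cs Ts (grow1 s cs 128 T b) := rfl

/-- a row code belongs to the set up to sign -/
noncomputable def inS (S R : ℕ) : Bool := force R fun R => S.testBit (dec R) || S.testBit (dec (s R NEG))

/-- the set is closed under the four generators up to sign -/
noncomputable def closB (S : ℕ) : Bool :=
  force S fun S => S.testBit 1100 && allBelow (fun a => allBelow (fun b => force (Nat.add (Nat.mul a 125) b) fun n =>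
    cond (S.testBit n) (force (enc n) fun R =>
      inS s S (s R (g7 0)) && inS s S (s R (g7 1)) && inS s S (s R (g7 2)) && inS s S (s R (g7 3))) true) 125) 625

end Grow

theorem testBit_lor_bit {s a m : ℕ} (h : (Nat.lor s (Nat.shiftLeft 1 a)).testBit m = true) :
    s.testBit m = true ∨ a = m := by
  have h' : (s ||| 1 <<< a).testBit m = true := h
  rw [Nat.testBit_or, Nat.one_shiftLeft, Nat.testBit_two_pow, Bool.or_eq_true] at h'
  exact h'.imp id of_decide_eq_true

section GrowSound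

variable {P : V7 → Prop} {cs : List ℕ} (hneg : ∀ u, P u → P (-u))
  (hcs : ∀ G ∈ cs, okG C7 G = true ∧ ∀ u, P u → P (u ᵥ* m7 G))

include hneg hcs

theorem gstep_sound (x : ℕ) {b : ℕ} (hb : ∀ m, b.testBit m = true → P (vec m)) :
    ∀ m, (gstep st cs x b).testBit m = true → P (vec m) := by
  intro m hm
  unfold gstep at hm
  rw [force_eq] at hm
  cases ha : b.testBit (Nat.land x 131071) with
  | false => rw [ha] at hm; exact hb m hm
  | true =>
    rw [ha, cond_true, force_eq, force_eq] at hm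
    rcases testBit_lor_bit hm with h | h
    · exact hb m h
    · rw [← h]
      have hG : ∀ i, okG C7 (cs.getD i NEG) = true ∧ ∀ u, P u → P (u ᵥ* m7 (cs.getD i NEG)) := by
        intro i
        by_cases hi : i < cs.length
        · rw [List.getD_eq_getElem _ _ hi]; exact hcs _ (List.getElem_mem hi)
        · rw [List.getD_eq_default _ _ (by omega)]
          refine ⟨NEG_ok, fun u hu => ?_⟩
          rw [m7_NEG, vecMul_neg, vecMul_one]; exact hneg u hu
      obtain ⟨g1, g2⟩ := hG (Nat.land (Nat.shiftRight x 17) 3)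
      obtain ⟨k1, k2⟩ := st_spec (enc_ok (Nat.land x 131071)) g1
      have k3 := g2 _ (hb _ ha)
      unfold vec at k3
      rw [← k2] at k3
      cases Nat.beq (Nat.shiftRight x 19) 0
      · rw [cond_false, vec_dec (st_NEG k1).1, (st_NEG k1).2]; exact hneg _ k3
      · rw [cond_true, vec_dec k1]; exact k3

theorem grow1_sound (n : ℕ) : ∀ T b, (∀ m, b.testBit m = true → P (vec m)) →
    ∀ m, (grow1 st cs n T b).testBit m = true → P (vec m) := by
  induction n with
  | zero => intro T b hb; exact hb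
  | succ n ih => intro T b hb; rw [grow1_succ]; exact ih _ _ (gstep_sound hneg hcs _ hb)

theorem grow_sound (Ts : List ℕ) : ∀ b, (∀ m, b.testBit m = true → P (vec m)) →
    ∀ m, (grow st cs Ts b).testBit m = true → P (vec m) := by
  induction Ts with
  | nil => intro b hb; exact hb
  | cons T Ts ih => intro b hb; rw [grow_cons]; exact ih _ (grow1_sound hneg hcs _ _ _ hb)

end GrowSound

/-- the set of a list of numbers -/
def bitsOf (l : List ℕ) : ℕ := List.rec 0 (fun a _ ih => Nat.lor ih (Nat.shiftLeft 1 a)) l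

theorem bitsOf_sound {l : List ℕ} {m : ℕ} (h : (bitsOf l).testBit m = true) : m ∈ l := by
  induction l with
  | nil => exact absurd (show (0 : ℕ).testBit m = true from h) (by simp)
  | cons a l ih =>
    rcases testBit_lor_bit (s := bitsOf l) (a := a) h with h | h
    · exact List.mem_cons_of_mem _ (ih h)
    · rw [h]; exact List.mem_cons_self

/-- membership up to sign -/
def InS (S : ℕ) (u : V7) : Prop := ∃ n < 78125, S.testBit n = true ∧ (u = vec n ∨ u = -vec n)

theorem InS.neg {S : ℕ} {u : V7} (h : InS S u) : InS S (-u) := by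
  obtain ⟨n, h1, h2, h3⟩ := h
  refine ⟨n, h1, h2, ?_⟩
  rcases h3 with rfl | rfl
  · exact Or.inr rfl
  · exact Or.inl (neg_neg _)

theorem inS_sound {S R : ℕ} (hR : OkR C7 R) (h : inS st S R = true) : InS S (rv7 R) := by
  unfold inS at h
  rw [force_eq, Bool.or_eq_true] at h
  rcases h with h | h
  · exact ⟨_, (enc_dec hR).2, h, Or.inl (vec_dec hR).symm⟩
  · refine ⟨_, (enc_dec (st_NEG hR).1).2, h, Or.inr ?_⟩
    rw [vec_dec (st_NEG hR).1, (st_NEG hR).2, neg_neg]

/-- the set contains the orbit of `u0` -/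
def Orb (S : ℕ) : Prop := ∀ h : Hhat, InS S (u0 ᵥ* mh h)

theorem closB_sound {S : ℕ} (h : closB st S = true) : Orb S := by
  unfold closB at h
  rw [force_eq, Bool.and_eq_true] at h
  have hok : ∀ i : Fin 4, okG C7 (g7 i) = true := by decide +kernel
  have h1 : ∀ n < 78125, S.testBit n = true → ∀ i : Fin 4, InS S (vec n ᵥ* m7 (g7 i)) := by
    intro n hn hb i
    have h2 := allBelow_spec (allBelow_spec h.2 (n / 125) (by omega)) (n % 125) (by omega)
    have e : Nat.add (Nat.mul (n / 125) 125) (n % 125) = n := by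
      show n / 125 * 125 + n % 125 = n
      omega
    rw [force_eq, e, hb, cond_true, force_eq, Bool.and_eq_true, Bool.and_eq_true, Bool.and_eq_true] at h2
    have h3 : inS st S (st (enc n) (g7 i)) = true := by
      fin_cases i
      · exact h2.1.1.1
      · exact h2.1.1.2
      · exact h2.1.2
      · exact h2.2
    have h4 := st_spec (enc_ok n) (hok i)
    have h5 := inS_sound h4.1 h3
    rwa [h4.2] at h5
  have h2 : ∀ g : Hhat, ∀ u, InS S u → InS S (u ᵥ* mh g) := by
    intro g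
    induction g using hhat_ind with
    | h1 => intro u hu; rwa [mh_one, vecMul_one]
    | hg i a ha =>
      rintro u ⟨n, hn, hb, rfl | rfl⟩
      · rw [ha]; exact h1 n hn hb i
      · rw [ha, neg_vecMul]; exact (h1 n hn hb i).neg
    | hm a b ha hb => intro u hu; rw [mh_mul, ← vecMul_vecMul]; exact hb _ (ha _ hu)
  exact fun g => h2 g _ ⟨1100, by norm_num, h.1, Or.inl rfl⟩

/-! ### Covering the conjugates of `X0` in `G₂(5)` -/

section Cover

variable (r : List ℕ → ℕ → ℕ) (s : ℕ → ℕ → ℕ)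

/-- the word lies in `G₂(5)` and carries `u0` to the vector number `n` up to sign -/
noncomputable def repB (n : ℕ) (w : List ℕ) : Bool :=
  memB r w && force (r w (enc 1100)) fun R => Nat.beq R (enc n) || Nat.beq R (s (enc n) NEG)

/-- check of generators, representatives and forest -/
noncomputable def covB (S : ℕ) (f : List ℕ → Bool) (gs : List (List ℕ × ℕ)) (Ts : List ℕ)
    (reps : List (ℕ × List ℕ)) : Bool :=
  gs.all (fun g => actB r s g.1 g.2 && f g.1) && reps.all (fun p => repB r s p.1 p.2) &&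
    force S fun S => Nat.beq (Nat.land S (grow s (gs.map Prod.snd) Ts (bitsOf (reps.map Prod.fst)))) S

end Cover

theorem repB_sound {n : ℕ} {w : List ℕ} (h : repB rn st n w = true) :
    ∃ a : Hhat, psi a = wd w ∧ (u0 ᵥ* mh a = vec n ∨ u0 ᵥ* mh a = -vec n) := by
  unfold repB at h
  rw [force_eq, Bool.and_eq_true, Bool.or_eq_true] at h
  obtain ⟨M, hM⟩ := memB_sound h.1
  obtain ⟨a, ha, rfl⟩ := mem_of_acts hM
  refine ⟨a, ha, ?_⟩
  have h1 := (rn_spec w (okR_of7 (enc_ok 1100))).2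
  rw [rv_small (enc_ok 1100).1, vecMul_vecMul, hM, ← vecMul_vecMul] at h1
  rcases h.2 with h2 | h2
  · left
    rw [Nat.eq_of_beq_eq_true h2, rv_small (enc_ok n).1] at h1
    exact (Emb_vec_inj h1).symm
  · right
    rw [Nat.eq_of_beq_eq_true h2, rv_small (st_NEG (enc_ok n)).1.1, (st_NEG (enc_ok n)).2] at h1
    exact (Emb_vec_inj h1).symm

theorem covB_sound {S : ℕ} (hS : Orb S) {f : List ℕ → Bool} {gs : List (List ℕ × ℕ)} {Ts : List ℕ}
    {reps : List (ℕ × List ℕ)} (h : covB rn st S f gs Ts reps = true) {Φ : GG → Prop}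
    (hinv : ∀ y, Φ y → Φ y⁻¹) (hf : ∀ w, f w = true → ∀ y, Φ y → Φ ((wd w)⁻¹ * y * wd w))
    (hr : ∀ p ∈ reps, Φ ((wd p.2)⁻¹ * X0 * wd p.2)) : ∀ a : Hhat, Φ (cj a) := by
  unfold covB at h
  rw [force_eq, Bool.and_eq_true, Bool.and_eq_true] at h
  obtain ⟨⟨h1, h2⟩, h3⟩ := h
  let P : V7 → Prop := fun u => ∀ a : Hhat, (u0 ᵥ* mh a = u ∨ u0 ᵥ* mh a = -u) → Φ (cj a)
  have hneg : ∀ u, P u → P (-u) := fun u hu a ha => hu a (by rw [neg_neg] at ha; exact ha.symm)
  have key : ∀ m, S.testBit m = true → P (vec m) := by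
    intro m hm
    refine grow_sound (P := P) (cs := gs.map Prod.snd) hneg ?_ Ts (bitsOf (reps.map Prod.fst)) ?_ m ?_
    · intro G hG
      obtain ⟨g, hg, rfl⟩ := List.mem_map.1 hG
      have h4 := List.all_eq_true.1 h1 g hg
      rw [Bool.and_eq_true] at h4
      obtain ⟨b, hb, hm⟩ := mem_of_acts (actB_sound h4.1)
      have h5 := h4.1
      unfold actB at h5
      rw [Bool.and_eq_true] at h5
      refine ⟨h5.1, fun u hu a ha => ?_⟩
      have e : ∀ v : V7, u0 ᵥ* mh a = v ᵥ* mh b → u0 ᵥ* mh (a * b⁻¹) = v := by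
        intro v hv
        rw [mh_mul, ← vecMul_vecMul, hv, vecMul_vecMul, ← mh_mul, mul_inv_cancel, mh_one, vecMul_one]
      have h6 : Φ (cj (a * b⁻¹)) := by
        refine hu _ ?_
        rw [← hm, ← neg_vecMul] at ha
        exact ha.imp (e _) (e _)
      have h7 := hf _ h4.2 _ h6
      rwa [← hb, ← cj_mul, inv_mul_cancel_right] at h7
    · intro n hn
      obtain ⟨p, hp, rfl⟩ := List.mem_map.1 (bitsOf_sound hn)
      obtain ⟨b, hb, h4⟩ := repB_sound (List.all_eq_true.1 h2 p hp)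
      have h5 : Φ (cj b) := by have := hr p hp; rwa [← hb] at this
      intro a ha
      rcases ha with ha | ha <;> rcases h4 with h4 | h4
      · rw [cj_eq (ha.trans h4.symm)]; exact h5
      · rw [cj_neg (k := b) (by rw [ha, h4, neg_neg])]; exact hinv _ h5
      · rw [cj_neg (k := b) (by rw [ha, h4])]; exact hinv _ h5
      · rw [cj_eq (ha.trans h4.symm)]; exact h5
    · have h4 : S &&& grow st (gs.map Prod.snd) Ts (bitsOf (reps.map Prod.fst)) = S := Nat.eq_of_beq_eq_true h3
      rw [← h4, Nat.testBit_and, Bool.and_eq_true] at hm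
      exact hm.2
  intro a
  obtain ⟨n, -, hn, h4⟩ := hS a
  exact key n hn a h4

/-! ### Good pairs -/

section GoodPairs

variable {G : Type*} [Group G]

/-- `g` centralises or inverts `y` -/
def Nm (g y : G) : Prop := g * y = y * g ∨ g * y = y⁻¹ * g

theorem inv_rel {g a b : G} (h : g * a = b * g) : g * a⁻¹ = b⁻¹ * g := by
  calc g * a⁻¹ = b⁻¹ * (b * g) * a⁻¹ := by group
    _ = b⁻¹ * g := by rw [← h]; group

theorem conj_rel {g a b : G} (h : g * a = b * g) (t : G) :
    (t⁻¹ * g * t) * (t⁻¹ * a * t) = (t⁻¹ * b * t) * (t⁻¹ * g * t) := by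
  calc _ = t⁻¹ * (g * a) * t := by group
    _ = _ := by rw [h]; group

theorem Nm.inv {g y : G} (h : Nm g y) : Nm g y⁻¹ := h.imp inv_rel inv_rel

theorem Nm.conj {g y : G} (h : Nm g y) (t : G) : Nm (t⁻¹ * g * t) (t⁻¹ * y * t) := by
  rcases h with h | h
  · exact Or.inl (conj_rel h t)
  · right
    rw [conj_rel h t]; group

theorem Nm.eq {g y : G} (h : Nm g y) : g⁻¹ * y * g = y ∨ g⁻¹ * y * g = y⁻¹ := by
  rcases h with h | h
  · left
    rw [mul_assoc, ← h, inv_mul_cancel_left]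
  · right
    have h1 := inv_rel h
    rw [inv_inv] at h1
    rw [mul_assoc, ← h1, inv_mul_cancel_left]

/-- some element inverts `a` and centralises or inverts `b` -/
def Gd (a b : G) : Prop := ∃ g, g * a = a⁻¹ * g ∧ Nm g b

theorem Gd.conj {a b : G} (h : Gd a b) (t : G) : Gd (t⁻¹ * a * t) (t⁻¹ * b * t) := by
  obtain ⟨g, h1, h2⟩ := h
  refine ⟨t⁻¹ * g * t, ?_, h2.conj t⟩
  rw [conj_rel h1 t]; group

theorem Gd.inv_left {a b : G} (h : Gd a b) : Gd a⁻¹ b := let ⟨g, h1, h2⟩ := h; ⟨g, inv_rel h1, h2⟩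

theorem Gd.inv_right {a b : G} (h : Gd a b) : Gd a b⁻¹ := let ⟨g, h1, h2⟩ := h; ⟨g, h1, h2.inv⟩

end GoodPairs

/-- all pairs `(a, u⁻¹ y u)`, `y` a conjugate of `X0` in `G₂(5)`, are good -/
def Full (a u : GG) : Prop := ∀ h : Hhat, Gd a (u⁻¹ * cj h * u)

theorem Full.conj {a u : GG} (h : Full a u) (t : GG) : Full (t⁻¹ * a * t) (u * t) := by
  intro k
  have := (h k).conj t
  rwa [show t⁻¹ * (u⁻¹ * cj k * u) * t = (u * t)⁻¹ * cj k * (u * t) by group] at this

theorem Full.left {a u : GG} (h : Full a u) (k : Hhat) : Full a (psi k * u) := by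
  intro l
  have := h (l * k)
  rwa [cj_mul, show u⁻¹ * ((psi k)⁻¹ * cj l * psi k) * u = (psi k * u)⁻¹ * cj l * (psi k * u) by group] at this

theorem Full.inv {a u : GG} (h : Full a u) : Full a⁻¹ u := fun k => (h k).inv_left

theorem mem_of_memB {w : List ℕ} (h : memB rn w = true) : ∃ a : Hhat, psi a = wd w := by
  obtain ⟨M, hM⟩ := memB_sound h
  obtain ⟨a, ha, -⟩ := mem_of_acts hM
  exact ⟨a, ha⟩

section Levels

variable (r : List ℕ → ℕ → ℕ) (s : ℕ → ℕ → ℕ)

/-- check of `Nm` -/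
noncomputable def normB (g y : List ℕ) : Bool := eqB r (g ++ y) (y ++ g) || eqB r (g ++ y) (iw y ++ g)

/-- second level: representative `w`, and triples (number, word in `G₂(5)`, inverting word) -/
noncomputable def lv2B (S : ℕ) (w : List ℕ) (gs : List (List ℕ × ℕ)) (Ts : List ℕ)
    (reps : List ((ℕ × List ℕ) × List ℕ)) : Bool :=
  covB r s S (fun b => normB r (iw w ++ b ++ w) x0) gs Ts (reps.map Prod.fst) &&
    reps.all fun p => eqB r (p.2 ++ x0) (iw x0 ++ p.2) && normB r p.2 (iw (p.1.2 ++ w) ++ x0 ++ (p.1.2 ++ w))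

/-- first level: base word `b`, and (number, word in `G₂(5)`, second level index, conjugating word) -/
noncomputable def lv1B (S : ℕ) (ws : List (List ℕ)) (b : List ℕ) (gs : List (List ℕ × ℕ)) (Ts : List ℕ)
    (reps : List ((ℕ × List ℕ) × ℕ × List ℕ)) : Bool :=
  covB r s S (fun c => memB r (b ++ c ++ iw b)) gs Ts (reps.map Prod.fst) &&
    reps.all fun p => Nat.ble (Nat.succ p.2.1) ws.length &&
      normB r (p.1.2 ++ iw p.2.2) x0 && memB r (b ++ iw (ws.getD p.2.1 [] ++ p.2.2))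

end Levels

theorem normB_sound {g y : List ℕ} (h : normB rn g y = true) : Nm (wd g) (wd y) := by
  unfold normB at h
  rw [Bool.or_eq_true] at h
  rcases h with h | h
  · left; have := eqB_sound h; rwa [wd_append, wd_append] at this
  · right; have := eqB_sound h; rwa [wd_append, wd_append, wd_iw] at this

theorem lv2B_sound {S : ℕ} (hS : Orb S) {w : List ℕ} {gs : List (List ℕ × ℕ)} {Ts : List ℕ}
    {reps : List ((ℕ × List ℕ) × List ℕ)} (h : lv2B rn st S w gs Ts reps = true) : Full X0 (wd w) := by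
  unfold lv2B at h
  rw [Bool.and_eq_true] at h
  refine covB_sound hS h.1 (Φ := fun y => Gd X0 ((wd w)⁻¹ * y * wd w)) ?_ ?_ ?_
  · intro y hy
    have := hy.inv_right
    rwa [show ((wd w)⁻¹ * y * wd w)⁻¹ = (wd w)⁻¹ * y⁻¹ * wd w by group] at this
  · intro b hb y hy
    have h1 := normB_sound hb
    rw [wd_append, wd_append, wd_iw] at h1
    have h2 := hy.conj ((wd w)⁻¹ * wd b * wd w)
    rw [show ((wd w)⁻¹ * wd b * wd w)⁻¹ * ((wd w)⁻¹ * y * wd w) * ((wd w)⁻¹ * wd b * wd w) =
      (wd w)⁻¹ * ((wd b)⁻¹ * y * wd b) * wd w by group] at h2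
    rcases h1.eq with e | e
    · rwa [show X0 = wd x0 from rfl, e] at h2
    · rw [show X0 = wd x0 from rfl, e] at h2
      have h3 := h2.inv_left
      rwa [inv_inv] at h3
  · intro p hp
    obtain ⟨q, hq, rfl⟩ := List.mem_map.1 hp
    have h1 := List.all_eq_true.1 h.2 q hq
    rw [Bool.and_eq_true] at h1
    have h2 := eqB_sound h1.1
    have h3 := normB_sound h1.2
    rw [wd_append, wd_append, wd_iw] at h2
    rw [wd_append, wd_append, wd_iw, wd_append] at h3
    refine ⟨wd q.2, h2, ?_⟩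
    rwa [show (wd w)⁻¹ * ((wd q.1.2)⁻¹ * X0 * wd q.1.2) * wd w =
      (wd q.1.2 * wd w)⁻¹ * X0 * (wd q.1.2 * wd w) by group]

theorem lv1B_sound {S : ℕ} (hS : Orb S) {ws : List (List ℕ)} (hws : ∀ w ∈ ws, Full X0 (wd w)) {b : List ℕ}
    {gs : List (List ℕ × ℕ)} {Ts : List ℕ} {reps : List ((ℕ × List ℕ) × ℕ × List ℕ)}
    (h : lv1B rn st S ws b gs Ts reps = true) : ∀ a : Hhat, Full (cj a) (wd b) := by
  unfold lv1B at h
  rw [Bool.and_eq_true] at h
  refine covB_sound hS h.1 (Φ := fun y => Full y (wd b)) (fun y hy => hy.inv) ?_ ?_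
  · intro c hc y hy
    obtain ⟨k, hk⟩ := mem_of_memB hc
    rw [wd_append, wd_append, wd_iw] at hk
    have h1 := (hy.conj (wd c)).left k⁻¹
    rwa [map_inv, hk, show (wd b * wd c * (wd b)⁻¹)⁻¹ * (wd b * wd c) = wd b by group] at h1
  · intro p hp
    obtain ⟨q, hq, rfl⟩ := List.mem_map.1 hp
    have h1 := List.all_eq_true.1 h.2 q hq
    rw [Bool.and_eq_true, Bool.and_eq_true] at h1
    obtain ⟨⟨h2, h3⟩, h4⟩ := h1
    have hj : q.2.1 < ws.length := Nat.le_of_ble_eq_true h2
    have hmem : ws.getD q.2.1 [] ∈ ws := by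
      rw [List.getD_eq_getElem _ _ hj]; exact List.getElem_mem hj
    obtain ⟨k, hk⟩ := mem_of_memB h4
    rw [wd_append, wd_iw, wd_append] at hk
    have h5 := ((hws _ hmem).conj (wd q.2.2)).left k
    rw [hk, inv_mul_cancel_right] at h5
    have h6 := normB_sound h3
    rw [wd_append, wd_iw] at h6
    have e0 : (wd q.1.2)⁻¹ * X0 * wd q.1.2 =
        (wd q.2.2)⁻¹ * ((wd q.1.2 * (wd q.2.2)⁻¹)⁻¹ * X0 * (wd q.1.2 * (wd q.2.2)⁻¹)) * wd q.2.2 := by group
    show Full ((wd q.1.2)⁻¹ * X0 * wd q.1.2) (wd b)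
    rw [e0]
    rcases h6.eq with e | e
    · rwa [show X0 = wd x0 from rfl, e]
    · rw [show X0 = wd x0 from rfl, e]
      have h7 := h5.inv
      rwa [show ((wd q.2.2)⁻¹ * X0 * wd q.2.2)⁻¹ = (wd q.2.2)⁻¹ * X0⁻¹ * wd q.2.2 by group] at h7

/-- evaluate the constants of both configurations once -/
noncomputable def ctx (k : (List ℕ → ℕ → ℕ) → (ℕ → ℕ → ℕ) → Bool) : Bool :=
  withC C fun _ p r m t nf GM FM LO HI HT => withC C7 fun _ p' r' m' t' nf' GM' FM' LO' HI' HT' =>
    k (fun w R => runK p r m t nf GM FM LO HI HT (w.map cd) R) (stepK p' r' m' t' nf' GM' FM' LO' HI' HT')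

theorem withC_eq {α : Type} (D : Cfg) (k : ℕ → ℕ → ℕ → ℕ → ℕ → ℕ → ℕ → ℕ → ℕ → ℕ → ℕ → α) :
    withC D k = k D.s D.p D.r D.m D.t D.nf (GMc D) (FMc D) (LOc D) (HIc D) (HTc D) := rfl

theorem ctx_eq (k : (List ℕ → ℕ → ℕ) → (ℕ → ℕ → ℕ) → Bool) : ctx k = k rn st := by
  unfold ctx
  rw [withC_eq, withC_eq]
  rfl

end Cfsg.Agent.SP.PosD.Lyons
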